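import Cfsg.Agent.H694.EB.TwoP
import Cfsg.Agent.H694.Diag
import Cfsg.Agent.H686.EB.CountsA
import Cfsg.Agent.S0157

/-!
# TEAM EB (S4522, S4515), [U7]: type `A_n`, `n ≥ 3`, in characteristic two (helper24)

`evenJ_of_diff` : two sets `𝒳`, `𝒴` of subgroups with `Aut`-invariant permutation characters whose difference has
norm one, and an `Aut`-stable set `ℱ` with constituents in the principal `2`-block.

`evenJ_A` : `𝒳` = lines, `𝒴` = points, `ℱ` = flags (point, hyperplane).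
-/

set_option autoImplicit false
set_option linter.style.haveILetI false

namespace Cfsg.Agent.H24.EB

open Cfsg Cfsg.Agent.H694 Cfsg.Agent.H694.EB Cfsg.Agent.H610.EB Cfsg.Agent.H684.EB
open Cfsg.Agent.Characters.Core
open Cfsg.Agent.LieExceptional.BNPairCore Cfsg.Agent.Tits.Core
  Cfsg.Agent.Tits.OfBN Cfsg.Agent.Schreier.BNSch Cfsg.Agent.FixBN
  Cfsg.Agent.OddHalf.Table.AutBldg
open Cfsg.Agent.Omega.ML.Ex.Typ (HasSplitT HasRGDT)
open Cfsg.Agent.LieRecognition.BNCox (cA)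

universe u

section

variable {S : Type u} [Group S] [Fintype S]

theorem isCharacter_permS (𝒳 : Set (Subgroup S))
    (h : ∀ g : S, ∀ H ∈ 𝒳, H.map (MulAut.conj g).toMonoidHom ∈ 𝒳) : IsCharacter S (permS 𝒳) := by
  haveI : Finite 𝒳 := Subtype.finite
  rw [permS_eq 𝒳 h]
  letI := actS 𝒳 h
  exact S0157.isCharacter_fixedBy (G := S) 𝒳

theorem permS_pow (𝒳 : Set (Subgroup S))
    (h : ∀ g : S, ∀ H ∈ 𝒳, H.map (MulAut.conj g).toMonoidHom ∈ 𝒳) {k : ℕ} (hk : IsK S k) (s : S) :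
    permS 𝒳 (s ^ k) = permS 𝒳 s := by
  rw [permS_eq 𝒳 h]
  letI := actS 𝒳 h
  show (Nat.card (MulAction.fixedBy 𝒳 (s ^ k)) : ℂ) = (Nat.card (MulAction.fixedBy 𝒳 s) : ℂ)
  rw [fixedBy_pow hk]

/-- **`EvenJ` from a difference of norm one.** -/
theorem evenJ_of_diff (𝒳 𝒴 ℱ : Set (Subgroup S))
    (hX : ∀ g : S, ∀ H ∈ 𝒳, H.map (MulAut.conj g).toMonoidHom ∈ 𝒳)
    (hY : ∀ g : S, ∀ H ∈ 𝒴, H.map (MulAut.conj g).toMonoidHom ∈ 𝒴)
    (hF : ∀ α : S ≃* S, ∀ H ∈ ℱ, H.map α.toMonoidHom ∈ ℱ)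
    (hXα : ∀ (α : S ≃* S) (s : S), permS 𝒳 (α s) = permS 𝒳 s)
    (hYα : ∀ (α : S ≃* S) (s : S), permS 𝒴 (α s) = permS 𝒴 s)
    {a b c d e : ℕ} (ha : Nat.card (Quotient (pairRel 𝒳 𝒳)) = a) (hb : Nat.card (Quotient (pairRel 𝒳 𝒴)) = b)
    (hc : Nat.card (Quotient (pairRel 𝒴 𝒴)) = c) (habc : a + c = 2 * b + 1)
    (hd : Nat.card (Quotient (pairRel ℱ 𝒳)) = d) (he : Nat.card (Quotient (pairRel ℱ 𝒴)) = e)
    (hodd : Odd (d + e)) (heven : Even (Nat.card 𝒳 + Nat.card 𝒴)) (hB : InB0 ℱ) : EvenJ S := by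
  have hF' : ∀ g : S, ∀ H ∈ ℱ, H.map (MulAut.conj g).toMonoidHom ∈ ℱ := fun g H hH => hF (MulAut.conj g) H hH
  have h1 := classInner_permS 𝒳 𝒳 hX hX
  have h2 := classInner_permS 𝒳 𝒴 hX hY
  have h3 := classInner_permS 𝒴 𝒴 hY hY
  have h4 := classInner_permS ℱ 𝒳 hF' hX
  have h5 := classInner_permS ℱ 𝒴 hF' hY
  rw [ha] at h1
  rw [hb] at h2
  rw [hc] at h3
  rw [hd] at h4
  rw [he] at h5
  have h6 : classInner (permS 𝒴) (permS 𝒳) = (b : ℂ) := by
    rw [← classInner_conj_symm, h2]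
    simp
  have hnorm : classInner (permS 𝒳 - permS 𝒴) (permS 𝒳 - permS 𝒴) = 1 := by
    rw [classInner_sub_left, classInner_sub_right, classInner_sub_right, h1, h2, h3, h6]
    have h7 : (a : ℂ) + c = 2 * b + 1 := by exact_mod_cast habc
    linear_combination h7
  have hgen : IsGeneralizedCharacter S (permS 𝒳 - permS 𝒴) :=
    ⟨_, _, isCharacter_permS 𝒳 hX, isCharacter_permS 𝒴 hY, rfl⟩
  -- the irreducible character and its sign
  obtain ⟨φ, ε, hφ, hε, hφe⟩ : ∃ (φ : S → ℂ) (ε : ℤ), IsIrrCharacter S φ ∧ (ε = 1 ∨ ε = -1) ∧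
      φ = (ε : ℂ) • (permS 𝒳 - permS 𝒴) := by
    rcases isIrr_of_generalized hgen hnorm with h | h
    · exact ⟨_, 1, h, Or.inl rfl, by simp⟩
    · exact ⟨_, -1, h, Or.inr rfl, by simp⟩
  have hεo : Odd ε := by
    rcases hε with rfl | rfl <;> decide
  have hmu : mu (permS ℱ) φ = ε * ((d : ℤ) - e) := by
    apply mu_eq
    rw [hφe, classInner_smul_right, classInner_sub_right, h4, h5]
    push_cast
    simp
  have hde : Odd ((d : ℤ) - e) := by
    rw [Int.odd_sub']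
    have h8 : Odd ((d : ℤ) + e) := by exact_mod_cast hodd
    rw [Int.odd_add] at h8
    rw [Int.odd_iff, Int.even_iff] at *
    omega
  have hmuo : Odd (mu (permS ℱ) φ) := by
    rw [hmu]
    exact hεo.mul hde
  refine RPhi.evenJ (rphi_of_set hφ ?_ ?_ ?_ ?_ ℱ hF hmuo)
  · obtain ⟨n, -, hn⟩ := isIrr_apply_one hφ
    have h7 : charDegree φ = n := by
      unfold charDegree
      rw [hn, Complex.natCast_re, Nat.floor_natCast]
    rw [h7]
    have h8 : (n : ℤ) = ε * ((Nat.card 𝒳 : ℤ) - Nat.card 𝒴) := by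
      have h9 : (n : ℂ) = (ε : ℂ) * ((Nat.card 𝒳 : ℂ) - Nat.card 𝒴) := by
        rw [← hn, hφe]
        show (ε : ℂ) * (permS 𝒳 1 - permS 𝒴 1) = _
        rw [permS_one, permS_one]
      exact_mod_cast h9
    have h9 : Even ((n : ℕ) : ℤ) := by
      rw [h8]
      refine Even.mul_left ?_ _
      have h10 : Even ((Nat.card 𝒳 : ℤ) + Nat.card 𝒴) := by exact_mod_cast heven
      rw [Int.even_sub]
      rwa [Int.even_add] at h10
    exact_mod_cast h9
  · intro k hk s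
    rw [hφe]
    show (ε : ℂ) * (permS 𝒳 (s ^ k) - permS 𝒴 (s ^ k)) = (ε : ℂ) * (permS 𝒳 s - permS 𝒴 s)
    rw [permS_pow 𝒳 hX hk, permS_pow 𝒴 hY hk]
  · intro α
    funext s
    rw [hφe]
    show (ε : ℂ) * (permS 𝒳 (α s) - permS 𝒴 (α s)) = (ε : ℂ) * (permS 𝒳 s - permS 𝒴 s)
    rw [hXα, hYα]
  · intro m hm
    refine hB m hm ⟨φ, hφ⟩ ?_
    show mu (permS ℱ) φ ≠ 0
    intro h0
    rw [h0] at hmuo
    exact absurd hmuo (by decide)

end

section

variable {K : Type u} [Group K]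

/-- The permutation characters of the images under an automorphism. -/
theorem permS_cls_map (α : K ≃* K) {A B : Subgroup K} {g : K}
    (h : A.map α.toMonoidHom = B.map (MulAut.conj g).toMonoidHom) (s : K) :
    permS (cls B) (α s) = permS (cls A) s := by
  have hinj : Function.Injective (fun H : Subgroup K => H.map α.toMonoidHom) :=
    Subgroup.map_injective α.injective
  have hc : ∀ (t : K) (H : Subgroup K), (H.map (MulAut.conj t).toMonoidHom).map α.toMonoidHom =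
      (H.map α.toMonoidHom).map (MulAut.conj (α t)).toMonoidHom := by
    intro t H
    rw [Subgroup.map_map, Subgroup.map_map]
    congr 1
    ext x
    simp
  have hB : B = (A.map α.toMonoidHom).map (MulAut.conj g⁻¹).toMonoidHom := by
    rw [h, map_conj_conj, inv_mul_cancel, map_conj_one]
  have hs : {H : Subgroup K | H.map α.symm.toMonoidHom ∈ cls A} = cls B := by
    ext H
    constructor
    · rintro ⟨t, ht⟩
      have h1 : H = (H.map α.symm.toMonoidHom).map α.toMonoidHom := by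
        rw [Subgroup.map_map]
        have h2 : α.toMonoidHom.comp α.symm.toMonoidHom = MonoidHom.id K := by
          ext x
          simp
        rw [h2, Subgroup.map_id]
      have ht' : A.map (MulAut.conj t).toMonoidHom = H.map α.symm.toMonoidHom := ht
      refine ⟨α t * g, ?_⟩
      show B.map (MulAut.conj (α t * g)).toMonoidHom = H
      rw [h1, ← ht', hc, h, map_conj_conj]
    · rintro ⟨t, ht⟩
      have ht' : B.map (MulAut.conj t).toMonoidHom = H := ht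
      refine ⟨α.symm (t * g⁻¹), ?_⟩
      show A.map (MulAut.conj (α.symm (t * g⁻¹))).toMonoidHom = H.map α.symm.toMonoidHom
      apply hinj
      show (A.map (MulAut.conj (α.symm (t * g⁻¹))).toMonoidHom).map α.toMonoidHom =
        (H.map α.symm.toMonoidHom).map α.toMonoidHom
      have h2 : α.toMonoidHom.comp α.symm.toMonoidHom = MonoidHom.id K := by
        ext x
        simp
      rw [hc, α.apply_symm_apply, Subgroup.map_map H, h2, Subgroup.map_id, ← ht', hB, map_conj_conj]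
  rw [← hs]
  exact permS_equiv α (cls A) s

end

/-- the images of the complement of a node -/
theorem image_ne {I : Type*} (σ : I ≃ I) (i : I) : σ '' {j | j ≠ i} = {j | j ≠ σ i} := by
  ext j
  constructor
  · rintro ⟨k, hk, rfl⟩ h
    exact hk (σ.injective h)
  · intro hj
    refine ⟨σ.symm j, fun h => hj ?_, σ.apply_symm_apply j⟩
    rw [← h, σ.apply_symm_apply]

/-- the diagram automorphisms of `A_n` on the first two nodes -/
theorem diag_A {n : ℕ} (hn : 3 ≤ n) (σ : Fin n ≃ Fin n) (hσ : ∀ i j, cA n (σ i) (σ j) = cA n i j)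
    {a b : Fin n} (ha : (a : ℕ) = 0) (hb : (b : ℕ) = 1) :
    ((σ a : ℕ) = 0 ∧ (σ b : ℕ) = 1) ∨ ((σ a : ℕ) = n - 1 ∧ (σ b : ℕ) = n - 2) := by
  have h1 := (A_three (σ a) (σ b)).1 (by rw [hσ, A_three]; omega)
  have h2 := leaf_A hn σ hσ a (Or.inl ha)
  have h3 := (σ b).2
  omega

/-- **[U7] Type `A_n`, `n ≥ 3`, in characteristic two.** -/
theorem evenJ_A {n : ℕ} (hn : 3 ≤ n) {K : Type u} [Group K] [Finite K] (hK : HasSplitT 2 (cA n) K) (hdz : DZ K) :
    EvenJ K := by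
  obtain ⟨P, U, e, S, hN, cs, hcs⟩ := hK
  haveI : Fact (Nat.Prime 2) := ⟨Nat.prime_two⟩
  haveI : Fintype K := Fintype.ofFinite K
  have hcard : ∀ J L : Set (Fin n), Nat.card (Quotient (pairRel (cls (PJ P e J)) (cls (PJ P e L)))) =
      Nat.card (DoubleCoset.Quotient (WJ cs J : Set (WP P)) (WJ cs L : Set (WP P))) := by
    intro J L
    rw [card_pairRel (normalizer_PJ e J) (normalizer_PJ e L), card_double e cs hcs]
  have hconj : ∀ (J : Set (Fin n)) (g : K), ∀ H ∈ cls (PJ P e J), H.map (MulAut.conj g).toMonoidHom ∈ cls (PJ P e J) :=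
    fun J g H hH => conj_mem_cls hH g
  obtain ⟨⟨c1, c2, c3⟩, ⟨c4, c5, c6⟩, c7, c8, c9⟩ := Cfsg.Agent.H686.EB.CountsA.counts_A hn cs
  -- the norm zero differences
  have hzero : ∀ (J L : Set (Fin n)) (m : ℕ),
      Nat.card (DoubleCoset.Quotient (WJ cs J : Set (WP P)) (WJ cs J : Set (WP P))) = m →
      Nat.card (DoubleCoset.Quotient (WJ cs J : Set (WP P)) (WJ cs L : Set (WP P))) = m →
      Nat.card (DoubleCoset.Quotient (WJ cs L : Set (WP P)) (WJ cs L : Set (WP P))) = m →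
      permS (cls (PJ P e J)) = permS (cls (PJ P e L)) := by
    intro J L m h1 h2 h3
    have h4 := classInner_permS _ _ (hconj J) (hconj J)
    have h5 := classInner_permS _ _ (hconj J) (hconj L)
    have h6 := classInner_permS _ _ (hconj L) (hconj L)
    rw [hcard, h1] at h4
    rw [hcard, h2] at h5
    rw [hcard, h3] at h6
    have h7 : classInner (permS (cls (PJ P e L))) (permS (cls (PJ P e J))) = (m : ℂ) := by
      rw [← classInner_conj_symm, h5]
      simp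
    refine sub_eq_zero.1 (classInner_self_eq_zero ?_)
    rw [classInner_sub_left, classInner_sub_right, classInner_sub_right, h4, h5, h6, h7]
    ring
  have hpts := hzero _ _ 2 c1 c2 c3
  have hlns := hzero _ _ 3 c4 c5 c6
  -- the nodes
  obtain ⟨a, ha⟩ : ∃ a : Fin n, (a : ℕ) = 0 := ⟨⟨0, by omega⟩, rfl⟩
  obtain ⟨b, hb⟩ : ∃ b : Fin n, (b : ℕ) = 1 := ⟨⟨1, by omega⟩, rfl⟩
  have hset : ∀ (i : Fin n) (m : ℕ), (i : ℕ) = m → {j : Fin n | (j : ℕ) ≠ m} = {j | j ≠ i} := by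
    intro i m him
    ext j
    show (j : ℕ) ≠ m ↔ j ≠ i
    rw [← him, ne_eq, ne_eq, Fin.ext_iff]
  -- invariance
  have hinv : ∀ (α : K ≃* K) (s : K),
      permS (cls (PJ P e {i | (i : ℕ) ≠ 1})) (α s) = permS (cls (PJ P e {i | (i : ℕ) ≠ 1})) s ∧
      permS (cls (PJ P e {i | (i : ℕ) ≠ 0})) (α s) = permS (cls (PJ P e {i | (i : ℕ) ≠ 0})) s := by
    intro α s
    obtain ⟨σ, hσ, h⟩ := exists_type_perm e cs hcs S α
    obtain ⟨g, hg⟩ := h {i | (i : ℕ) ≠ 0}
    obtain ⟨t, ht⟩ := h {i | (i : ℕ) ≠ 1}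
    have h1 := permS_cls_map α hg s
    have h2 := permS_cls_map α ht s
    have h3 : σ '' {i | (i : ℕ) ≠ 0} = {j | j ≠ σ a} := by rw [hset a 0 ha, image_ne]
    have h4 : σ '' {i | (i : ℕ) ≠ 1} = {j | j ≠ σ b} := by rw [hset b 1 hb, image_ne]
    rw [h3] at h1
    rw [h4] at h2
    rcases diag_A hn σ hσ ha hb with ⟨h5, h6⟩ | ⟨h5, h6⟩
    · rw [← hset _ _ h5] at h1
      rw [← hset _ _ h6] at h2
      exact ⟨h2, h1⟩
    · rw [← hset _ _ h5, ← hpts] at h1
      rw [← hset _ _ h6, ← hlns] at h2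
      exact ⟨h2, h1⟩
  refine evenJ_of_diff (cls (PJ P e {i | (i : ℕ) ≠ 1})) (cls (PJ P e {i | (i : ℕ) ≠ 0}))
    (cls (PJ P e {i | ¬ ((i : ℕ) = 0 ∨ (i : ℕ) = n - 1)})) (hconj _) (hconj _) ?_
    (fun α s => (hinv α s).1) (fun α s => (hinv α s).2) (a := 3) (b := 2) (c := 2) (d := 4) (e := 3)
    ?_ ?_ ?_ rfl ?_ ?_ (by decide) ?_ ?_
  · intro α
    obtain ⟨σ, hσ, h⟩ := exists_type_perm e cs hcs S α
    obtain ⟨g, hg⟩ := h {i | ¬ ((i : ℕ) = 0 ∨ (i : ℕ) = n - 1)}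
    have h1 : σ '' {i : Fin n | ¬ ((i : ℕ) = 0 ∨ (i : ℕ) = n - 1)} = {i : Fin n | ¬ ((i : ℕ) = 0 ∨ (i : ℕ) = n - 1)} :=
      image_compl_eq σ {i | (i : ℕ) = 0 ∨ (i : ℕ) = n - 1} fun i hi => leaf_A hn σ hσ i hi
    rw [h1] at hg
    rintro _ ⟨t, rfl⟩
    refine ⟨α t * g, ?_⟩
    rw [← map_conj_conj, ← hg, Subgroup.map_map, Subgroup.map_map]
    congr 1
    ext x
    simp
  · rw [hcard, c4]
  · rw [hcard, card_double_comm, c7]
  · rw [hcard, c1]
  · rw [hcard, c9]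
  · rw [hcard, c8]
  · rw [card_cls (normalizer_PJ e _), card_cls (normalizer_PJ e _)]
    exact (index_odd e cs hcs S _).add_odd (index_odd e cs hcs S _)
  · refine inB0_two e cs hcs S hdz ⟨b, ?_⟩
    show ¬ ((b : ℕ) = 0 ∨ (b : ℕ) = n - 1)
    omega

end Cfsg.Agent.H24.EB
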